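import Cfsg.Agent.Comp.U33b.Data

set_option autoImplicit false
set_option maxRecDepth 100000
set_option Elab.async false

namespace Cfsg.Agent.Comp.U33b

theorem s0 : allR J.slpAt 0 4 = true := by decide +kernel
theorem l1 : J.lvlAt L1 [] = true := by decide +kernel
theorem q1_0 : allR (schChk J.E L1 [] J.AB h1 (nat_lit 1) (nat_lit 1)) 0 24 = true := by decide +kernel
theorem l0 : J.lvlAt L0 [L1] = true := by decide +kernel
theorem q0_0 : allR (schChk J.E L0 [L1] J.AB h0 (nat_lit 14) (nat_lit 16383)) 0 23 = true := by decide +kernel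
theorem q0_1 : allR (schChk J.E L0 [L1] J.AB h0 (nat_lit 14) (nat_lit 16383)) 23 23 = true := by decide +kernel
theorem q0_2 : allR (schChk J.E L0 [L1] J.AB h0 (nat_lit 14) (nat_lit 16383)) 46 23 = true := by decide +kernel
theorem q0_3 : allR (schChk J.E L0 [L1] J.AB h0 (nat_lit 14) (nat_lit 16383)) 69 23 = true := by decide +kernel
theorem q0_4 : allR (schChk J.E L0 [L1] J.AB h0 (nat_lit 14) (nat_lit 16383)) 92 23 = true := by decide +kernel
theorem q0_5 : allR (schChk J.E L0 [L1] J.AB h0 (nat_lit 14) (nat_lit 16383)) 115 23 = true := by decide +kernel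
theorem q0_6 : allR (schChk J.E L0 [L1] J.AB h0 (nat_lit 14) (nat_lit 16383)) 138 23 = true := by decide +kernel
theorem q0_7 : allR (schChk J.E L0 [L1] J.AB h0 (nat_lit 14) (nat_lit 16383)) 161 23 = true := by decide +kernel
theorem q0_8 : allR (schChk J.E L0 [L1] J.AB h0 (nat_lit 14) (nat_lit 16383)) 184 23 = true := by decide +kernel
theorem q0_9 : allR (schChk J.E L0 [L1] J.AB h0 (nat_lit 14) (nat_lit 16383)) 207 23 = true := by decide +kernel
theorem q0_10 : allR (schChk J.E L0 [L1] J.AB h0 (nat_lit 14) (nat_lit 16383)) 230 22 = true := by decide +kernel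

end Cfsg.Agent.Comp.U33b
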