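import Cfsg.Agent.Comp.U33b.Chk0

set_option autoImplicit false
set_option maxRecDepth 100000
set_option Elab.async false

namespace Cfsg.Agent.Comp.U33b

theorem hs : ∀ j, j < J.N' → J.slpAt j = true := (range_step (lo := 0) 4 range_start s0)

theorem chain2 {Γ X : Type*} [Group Γ] [MulAction Γ X] {T : Lst X J.n} {gen : ℕ → Γ} {A : Subgroup Γ} (h : J.Model T gen A) : ChainOK h.M J.E (J.el gen) [] := trivial

theorem chain1 {Γ X : Type*} [Group Γ] [MulAction Γ X] {T : Lst X J.n} {gen : ℕ → Γ} {A : Subgroup Γ} (h : J.Model T gen A) : ChainOK h.M J.E (J.el gen) [L1] :=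
  h.chain_cons hs (chain2 h) l1 (range_step (lo := 0) 24 range_start q1_0)

theorem chain0 {Γ X : Type*} [Group Γ] [MulAction Γ X] {T : Lst X J.n} {gen : ℕ → Γ} {A : Subgroup Γ} (h : J.Model T gen A) : ChainOK h.M J.E (J.el gen) [L0, L1] :=
  h.chain_cons hs (chain1 h) l0 (range_step (lo := 230) 22 (range_step (lo := 207) 23 (range_step (lo := 184) 23 (range_step (lo := 161) 23 (range_step (lo := 138) 23 (range_step (lo := 115) 23 (range_step (lo := 92) 23 (range_step (lo := 69) 23 (range_step (lo := 46) 23 (range_step (lo := 23) 23 (range_step (lo := 0) 23 range_start q0_0) q0_1) q0_2) q0_3) q0_4) q0_5) q0_6) q0_7) q0_8) q0_9) q0_10)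

theorem GpL_eq {Γ : Type*} [Group Γ] (gen : ℕ → Γ) : GpL (J.el gen) [L0, L1] = J.G gen := Job.GpL_top rfl rfl

theorem card {Γ X : Type*} [Group Γ] [MulAction Γ X] {T : Lst X J.n} {gen : ℕ → Γ} {A : Subgroup Γ} (h : J.Model T gen A) : Nat.card (J.G gen) = 6048 := by
  rw [← GpL_eq, (chain0 h).card]; rfl

theorem finite {Γ X : Type*} [Group Γ] [MulAction Γ X] {T : Lst X J.n} {gen : ℕ → Γ} {A : Subgroup Γ} (h : J.Model T gen A) : Finite (J.G gen) := by
  rw [← GpL_eq]; exact (chain0 h).finite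

end Cfsg.Agent.Comp.U33b
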